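import Cfsg.Prelude.Def_LocalEven
import Cfsg.Prelude.Def_ConjugacyFunctors
import Cfsg.Agent.H34.Thompson
import Cfsg.Agent.H34.Conj
import Cfsg.Agent.H23.Thompson

set_option autoImplicit false

/-!
The subgroup `Ĵ` generated by the E-subgroups over `J_e`: invariance under isomorphisms, and `J_e ≤ Ĵ`.
-/

namespace Cfsg.Agent.H35.SFourControl

open Cfsg Subgroup
open scoped commutatorElement

universe u

/-- Being an E-group is invariant under isomorphisms. -/
theorem isEGroup_of_equiv {T T' : Type*} [Group T] [Group T'] (e : T ≃* T') (h : IsEGroup T) :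
    IsEGroup T' := by
  intro V' hV' hel hcond
  set f := e.symm.toMonoidHom with hf
  have hinj : Function.Injective f := e.symm.injective
  have hcen : ∀ X : Subgroup T', centralizer ((X.map f : Subgroup T) : Set T) =
      (centralizer (X : Set T')).map f := fun X => (H34.map_centralizer e.symm X).symm
  have hcard : ∀ X : Subgroup T', Nat.card (X.map f) = Nat.card X := fun X =>
    card_map_of_injective hinj
  have hback : ∀ X : Subgroup T, (X.map e.toMonoidHom).map f = X := fun X => by
    ext x; simp [hf]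
  have key : V'.map f ≤ center T := by
    refine h _ (hV'.map _ e.symm.surjective) (H34.isElementaryAbelian_map hel _) fun R hRc hRp hRn => ?_
    obtain ⟨R', rfl⟩ : ∃ R' : Subgroup T', R'.map f = R := ⟨_, hback R⟩
    rw [hcen] at hRc hRp hRn
    rw [← map_commutator, map_le_map_iff_of_injective hinj] at hRc
    rw [map_le_map_iff_of_injective hinj] at hRn
    have h1 := hcond R' hRc (fun r hr => by
      have := hRp _ ⟨r, hr, rfl⟩
      rwa [← map_pow, mem_map_iff_mem hinj] at this) hRn
    rw [hcen, hcen, ← map_inf _ _ _ hinj, ← map_inf _ _ _ hinj, ← map_commutator, hcard, hcard, hcard,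
      hcard, hcard]
    exact h1
  intro v hv
  refine mem_center_iff.2 fun g => e.symm.injective ?_
  rw [map_mul, map_mul]
  exact mem_center_iff.1 (key ⟨v, hv, rfl⟩) (e.symm g)

theorem map_jHat_le {T T' : Type*} [Group T] [Group T'] (e : T ≃* T') :
    (jHat T).map e.toMonoidHom ≤ jHat T' := by
  rw [jHat, map_le_iff_le_comap]
  refine sSup_le fun U hU => map_le_iff_le_comap.1 (le_sSup ?_)
  refine ⟨isEGroup_of_equiv (e.subgroupMap U) hU.1, ?_⟩
  rw [← H34.map_thompsonSubgroup (p := 2) e]
  exact map_mono hU.2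

theorem map_jHat {T T' : Type*} [Group T] [Group T'] (e : T ≃* T') :
    (jHat T).map e.toMonoidHom = jHat T' := by
  refine le_antisymm (map_jHat_le e) fun y hy => ⟨e.symm y, ?_, e.apply_symm_apply y⟩
  exact map_jHat_le e.symm ⟨y, hy, rfl⟩

/-- `Ω₁(Z(Ĵ))` of a group. -/
def z1 (Q : Type u) [Group Q] : Subgroup Q :=
  omegaOne 2 (jHat Q ⊓ centralizer (jHat Q : Set Q))

/-- `Ω₁(Z(Ĵ(P)))` inside the ambient group. -/
def z1Of {G : Type u} [Group G] (P : Subgroup G) : Subgroup G :=
  omegaOne 2 (((jHat P).map P.subtype) ⊓ centralizer ((jHat P).map P.subtype : Set G))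

theorem inducedFunctor_z1 {G : Type u} [Group G] (P : Subgroup G) :
    inducedFunctor (G := G) (fun Q _ => z1 Q) P = z1Of P := by
  rw [inducedFunctor, z1, z1Of, H34.map_omegaOne _ P.subtype_injective,
    H23.map_inf_centralizer P.subtype _ P.subtype_injective.injOn]

theorem map_z1 {Q R : Type u} [Group Q] [Group R] (e : Q ≃* R) :
    (z1 Q).map e.toMonoidHom = z1 R := by
  rw [z1, z1, H34.map_omegaOne _ e.injective, map_inf _ _ _ e.injective, H34.map_centralizer,
    map_jHat]

theorem map_z1Of {G H : Type u} [Group G] [Group H] (f : G →* H) (P : Subgroup G)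
    (hf : Set.InjOn f P) : (z1Of P).map f = z1Of (P.map f) := by
  let e : P ≃* P.map f := MulEquiv.ofBijective (f.subgroupMap P)
    ⟨fun x y h => Subtype.ext (hf x.2 y.2 (congrArg Subtype.val h)), f.subgroupMap_surjective P⟩
  rw [← inducedFunctor_z1, ← inducedFunctor_z1, inducedFunctor, inducedFunctor, ← map_z1 e, map_map,
    map_map]
  rfl

theorem map_jHatOf {G H : Type u} [Group G] [Group H] (f : G →* H) (P : Subgroup G)
    (hf : Set.InjOn f P) :
    ((jHat P).map P.subtype).map f = (jHat (P.map f)).map (P.map f).subtype := by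
  let e : P ≃* P.map f := MulEquiv.ofBijective (f.subgroupMap P)
    ⟨fun x y h => Subtype.ext (hf x.2 y.2 (congrArg Subtype.val h)), f.subgroupMap_surjective P⟩
  rw [← map_jHat e, map_map, map_map]
  rfl

variable {G : Type*} [Group G] [Finite G]

/-- A group generated by its largest elementary abelian subgroups is an E-group. -/
theorem isEGroup_thompsonSubgroup : IsEGroup (thompsonSubgroup 2 G) := by
  set J := thompsonSubgroup 2 G with hJ
  intro V hV hel hcond
  intro v hv
  refine mem_center_iff.2 fun g => ?_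
  have key : J ≤ (centralizer (V : Set J)).map J.subtype := by
    refine sSup_le fun A hA => ?_
    have hAJ : A ≤ J := le_sSup hA
    intro a ha
    refine ⟨⟨a, hAJ ha⟩, ?_, rfl⟩
    set R := A.subgroupOf J with hR
    haveI := hA.1.1
    have hRel : IsElementaryAbelian 2 R := ⟨⟨⟨fun x y => Subtype.ext (Subtype.ext
      (setLike_mul_comm (s := A) x.2 y.2))⟩⟩,
      fun x hx => Subtype.ext (hA.1.2 _ hx)⟩
    by_contra hcon
    obtain ⟨h1, -⟩ := hcond R
      (commutator_le.2 fun x hx y hy => by
        rw [commutatorElement_eq_one_iff_mul_comm.2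
          (congrArg Subtype.val (hRel.1.is_comm.comm ⟨x, hx⟩ ⟨y, hy⟩))]
        exact one_mem _)
      (fun x hx => by rw [hRel.2 x hx]; exact one_mem _) (fun hle => hcon (hle ha))
    set R0 := R ⊓ centralizer (V : Set J) with hR0
    have hE : IsElementaryAbelian 2 (R0 ⊔ V) :=
      H34.isElementaryAbelian_sup (H34.isElementaryAbelian_mono hRel inf_le_left) hel inf_le_right
    have hle1 : Nat.card ↥(R0 ⊔ V) ≤ Nat.card R := by
      have := hA.2 _ (H34.isElementaryAbelian_map hE J.subtype)
      rw [card_map_of_injective J.subtype_injective] at this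
      exact this.trans (le_of_eq (Nat.card_congr (subgroupOfEquivOfLe hAJ).toEquiv).symm)
    have hle2 : Nat.card ↥(R0 ⊓ V) ≤ Nat.card ↥(V ⊓ centralizer (R : Set J)) :=
      card_le_of_le fun x hx => ⟨hx.2, mem_centralizer_iff.2 fun r hr =>
        congrArg Subtype.val (hRel.1.is_comm.comm ⟨r, hr⟩ ⟨x, hx.1.1⟩)⟩
    have h3 := (H34.card_mul_card_le R0 V).trans (Nat.mul_le_mul hle1 hle2)
    -- contradiction
    have hpos : Nat.card R0 ≤ Nat.card R := card_le_of_le inf_le_left
    have h4 : Nat.card V ^ 2 * Nat.card R0 ^ 3 ≤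
        Nat.card R ^ 3 * Nat.card ↥(V ⊓ centralizer (R : Set J)) ^ 2 := by
      calc Nat.card V ^ 2 * Nat.card R0 ^ 3 = (Nat.card R0 * Nat.card V) ^ 2 * Nat.card R0 := by ring
        _ ≤ (Nat.card R * Nat.card ↥(V ⊓ centralizer (R : Set J))) ^ 2 * Nat.card R :=
          Nat.mul_le_mul (Nat.pow_le_pow_left h3 2) hpos
        _ = _ := by ring
    exact absurd h1 (not_lt.2 h4)
  obtain ⟨x, hx, hxg⟩ := key g.2
  rw [← Subtype.ext hxg]
  exact (mem_centralizer_iff.1 hx v hv).symm

/-- `J_e ≤ Ĵ`. -/
theorem thompson_le_jHat : thompsonSubgroup 2 G ≤ jHat G :=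
  le_sSup ⟨isEGroup_thompsonSubgroup, le_rfl⟩

/-- A central element of order two lies in `J_e`. -/
theorem mem_thompson_of_central {z : G} (hz : z ∈ center G) (h2 : z ^ 2 = 1) :
    z ∈ thompsonSubgroup 2 G := by
  obtain ⟨A, hA⟩ := H34.exists_maxElementaryAbelian (G := G) 2
  have hel : IsElementaryAbelian 2 (zpowers z) := by
    refine ⟨inferInstance, ?_⟩
    rintro _ ⟨i, rfl⟩
    show (z ^ i) ^ 2 = 1
    rw [← zpow_natCast (z ^ i), ← zpow_mul, mul_comm, zpow_mul, zpow_natCast, h2, one_zpow]
  refine le_sSup hA (H34.le_of_mem_max hA hel (fun a _ => mem_centralizer_iff.2 ?_) (mem_zpowers z))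
  rintro _ ⟨i, rfl⟩
  exact ((Commute.zpow_left (mem_center_iff.1 hz a).symm i)).eq

end Cfsg.Agent.H35.SFourControl
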