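import Cfsg.Agent.H35.SFourControl.JHat
import Cfsg.Agent.H35.CentralAutomizer.Basic
import Cfsg.Agent.H19.Cores
import Cfsg.Prelude.Def_EvenType

set_option autoImplicit false

/-!
The two factorisations transported to the normalizer of a centric normal subgroup of a Sylow subgroup.
-/

namespace Cfsg.Agent.H35.SFourControl

open Cfsg Subgroup
open scoped Pointwise
open Cfsg.Agent.H35.CentralAutomizer (IsMaxPIn)

universe u

/-- Both factorisations in a group. -/
def FactorsIn (G : Type u) [Group G] : Prop :=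
  ∀ S : Sylow 2 G,
    (∀ g : G, ∃ c ∈ centralizer ((((S : Subgroup G) ⊓ centralizer ((S : Subgroup G) : Set G)) : Subgroup G) : Set G),
      ∃ n ∈ normalizer ((((jHat ↥(S : Subgroup G)).map (S : Subgroup G).subtype) : Subgroup G) : Set G),
        g = c * n) ∧
    ∀ g : G, ∃ c ∈ centralizer (z1Of (S : Subgroup G) : Set G),
      ∃ n ∈ normalizer ((thompsonSubgroupOf 2 (S : Subgroup G) : Subgroup G) : Set G), g = c * n

/-- The factorisations hold in every constrained section. -/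
def Factors (G : Type u) [Group G] : Prop :=
  ∀ (K R : Subgroup G) [hR : (R.subgroupOf K).Normal],
    centralizer (pCore 2 (K ⧸ R.subgroupOf K) : Set (K ⧸ R.subgroupOf K)) ≤ pCore 2 (K ⧸ R.subgroupOf K) →
      FactorsIn (K ⧸ R.subgroupOf K)

variable {G : Type u} [Group G] [Finite G]

theorem z1Of_le (P : Subgroup G) : z1Of P ≤ P :=
  (closure_le _).2 fun _ hx => (inf_le_left.trans (map_subtype_le _)) hx.1

/-- An element normalising a `2`-subgroup modulo a normal subgroup of odd order normalises it up to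
that subgroup. -/
theorem exists_lift_normalizer {X : Type*} [Group X] [Finite X] (O : Subgroup X) [O.Normal]
    (hO : (Nat.card O).Coprime 2) {P : Subgroup X} (hP : IsPGroup 2 P) {c : X}
    (hc : c ∈ normalizer ((P ⊔ O : Subgroup X) : Set X)) :
    ∃ o ∈ O, o * c ∈ normalizer (P : Set X) := by
  haveI : Fact (Nat.Prime 2) := ⟨Nat.prime_two⟩
  set L := P ⊔ O
  have hPmax : IsMaxPIn 2 L P := by
    refine ⟨le_sup_left, hP, fun R hR hle hRL => le_antisymm (fun r hr => ?_) hle⟩
    have hr' : r ∈ (P : Set X) * (O : Set X) := by rw [← mul_normal]; exact hRL hr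
    obtain ⟨a, ha, b, hb, rfl⟩ := hr'
    have hbR : b ∈ R := by simpa using R.mul_mem (R.inv_mem (hle ha)) hr
    have h1 : b ∈ R ⊓ O := ⟨hbR, hb⟩
    rw [H19.inf_eq_bot_of_isPGroup_coprime hR hO, mem_bot] at h1
    simpa [h1] using ha
  have hcL : CentralAutomizer.cj c P ≤ L := by
    rintro _ ⟨a, ha, rfl⟩
    exact (mem_normalizer_iff.1 hc a).1 (mem_sup_left ha)
  obtain ⟨m, hm, hmle⟩ := hPmax.exists_conj_le (CentralAutomizer.isPGroup_cj c hP) hcL
  have hm' : m ∈ (P : Set X) * (O : Set X) := by rw [← mul_normal]; exact hm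
  obtain ⟨a, ha, o, ho, rfl⟩ := hm'
  refine ⟨o, ho, ?_⟩
  have hmc : a * o * c ∈ normalizer (P : Set X) := by
    rw [CentralAutomizer.cj_cj] at hmle
    exact mem_normalizer_iff_map_conj_eq.2 (eq_of_le_of_card_ge hmle (CentralAutomizer.card_cj _ P).ge)
  have := (normalizer (P : Set X)).mul_mem (inv_mem (le_normalizer ha)) hmc
  simpa [mul_assoc] using this

/-- An element centralising `Z` modulo a normal subgroup of odd order centralises it up to that
subgroup. -/
theorem exists_lift_centralizer {X : Type*} [Group X] [Finite X] (O : Subgroup X) [O.Normal]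
    (hO : (Nat.card O).Coprime 2) {P : Subgroup X} (hP : IsPGroup 2 P) {c : X}
    (hc : ∀ z ∈ P, c * z * c⁻¹ * z⁻¹ ∈ O) : ∃ o ∈ O, o * c ∈ centralizer (P : Set X) := by
  haveI : Fact (Nat.Prime 2) := ⟨Nat.prime_two⟩
  have hn : c ∈ normalizer ((P ⊔ O : Subgroup X) : Set X) := by
    refine mem_normalizer_iff_map_conj_eq.2 (eq_of_le_of_card_ge ?_ (CentralAutomizer.card_cj c _).ge)
    rw [Subgroup.map_sup, sup_le_iff]
    constructor
    · rintro _ ⟨z, hz, rfl⟩
      have := mul_mem (mem_sup_right (S := P) (hc z hz)) (mem_sup_left (T := O) hz)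
      simpa using this
    · rintro _ ⟨o, ho, rfl⟩
      exact mem_sup_right ((inferInstance : O.Normal).conj_mem o ho c)
  obtain ⟨o, ho, hoc⟩ := exists_lift_normalizer O hO hP hn
  refine ⟨o, ho, mem_centralizer_iff.2 fun z hz => ?_⟩
  have h1 : o * c * z * (o * c)⁻¹ * z⁻¹ ∈ P ⊓ O := by
    refine ⟨P.mul_mem ((mem_normalizer_iff.1 hoc z).1 hz) (P.inv_mem hz), ?_⟩
    have e : o * c * z * (o * c)⁻¹ * z⁻¹ = o * (c * z * c⁻¹ * z⁻¹) * (z * o⁻¹ * z⁻¹) := by group
    rw [e]
    exact mul_mem (mul_mem ho (hc z hz)) ((inferInstance : O.Normal).conj_mem _ (inv_mem ho) z)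
  rw [H19.inf_eq_bot_of_isPGroup_coprime hP hO, mem_bot, mul_inv_eq_one] at h1
  exact (mul_inv_eq_iff_eq_mul.1 h1).symm

/-- The factorisations in the normalizer of a centric normal subgroup of a Sylow subgroup. -/
theorem local_factor (hfac : Factors G) (S : Sylow 2 G) {R : Subgroup G} (hRS : R ≤ (S : Subgroup G))
    (hSR : (S : Subgroup G) ≤ normalizer (R : Set G))
    (hcen : (S : Subgroup G) ⊓ centralizer (R : Set G) ≤ R) {x : G} (hx : x ∈ normalizer (R : Set G)) :
    (∃ o ∈ centralizer (R : Set G),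
      ∃ c ∈ centralizer ((((S : Subgroup G) ⊓ centralizer ((S : Subgroup G) : Set G)) : Subgroup G) : Set G),
      ∃ n ∈ normalizer ((((jHat ↥(S : Subgroup G)).map (S : Subgroup G).subtype) : Subgroup G) : Set G),
        x = o * c * n) ∧
    ∃ o ∈ centralizer (R : Set G), ∃ c ∈ centralizer (z1Of (S : Subgroup G) : Set G),
      ∃ n ∈ normalizer ((thompsonSubgroupOf 2 (S : Subgroup G) : Subgroup G) : Set G), x = o * c * n := by
  classical
  haveI : Fact (Nat.Prime 2) := ⟨Nat.prime_two⟩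
  set X := normalizer (R : Set G) with hXdef
  set D := centralizer (R : Set G) with hDdef
  have hDX : D ≤ X := centralizer_le_normalizer _
  -- the elements of odd order of `C(R)`
  set P0 := (S : Subgroup G) ⊓ D with hP0
  have hP0c : P0 ≤ centralizer (D : Set G) := by
    rw [le_centralizer_iff]
    exact centralizer_le (SetLike.coe_subset_coe.2 hcen)
  have hP0max : IsMaxPIn 2 D P0 := by
    refine ⟨inf_le_right, S.isPGroup'.to_le inf_le_left, fun Q hQ hle hQD => ?_⟩
    have hSmax : IsMaxPIn 2 X (S : Subgroup G) :=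
      ⟨hSR, S.isPGroup', fun Q' h1 h2 _ => S.is_maximal' h1 h2⟩
    obtain ⟨m, hm, hmle⟩ := hSmax.exists_conj_le hQ (hQD.trans hDX)
    refine (eq_of_le_of_card_ge hle ?_).symm
    rw [← CentralAutomizer.card_cj m Q]
    refine card_le_of_le (le_inf hmle ?_)
    rintro _ ⟨q, hq, rfl⟩
    refine mem_centralizer_iff.2 fun r hr => ?_
    have h1 := mem_centralizer_iff.1 (hQD hq) _ ((mem_normalizer_iff.1 (inv_mem hm) r).1 hr)
    have := congrArg (fun y => m * y * m⁻¹) h1
    simpa [mul_assoc] using this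
  let PD : Sylow 2 D :=
    ⟨P0.subgroupOf D, hP0max.2.1.comap_subtype, fun {R'} hR' hle => by
      apply map_injective D.subtype_injective
      rw [map_subgroupOf_eq_of_le hP0max.1]
      refine hP0max.2.2 _ (hR'.map _) ?_ (map_subtype_le _)
      rw [← map_subgroupOf_eq_of_le hP0max.1]
      exact map_mono hle⟩
  have hPD : normalizer ((PD : Subgroup D) : Set D) ≤ centralizer ((PD : Subgroup D) : Set D) :=
    fun d _ => mem_centralizer_iff.2 fun z hz =>
      Subtype.ext (mem_centralizer_iff.1 (hP0c (mem_subgroupOf.1 hz)) d d.2).symm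
  set τ := MonoidHom.transferSylow PD hPD
  set O₁ := closure {y : G | y ∈ D ∧ Odd (orderOf y)} with hO₁
  have hO₁D : O₁ ≤ D := (closure_le _).2 fun _ hy => hy.1
  have hO₁odd : (Nat.card O₁).Coprime 2 := by
    have hle : O₁ ≤ τ.ker.map D.subtype := by
      refine (closure_le _).2 fun y hy => ⟨⟨y, hy.1⟩, ?_, rfl⟩
      have h1 : orderOf (τ ⟨y, hy.1⟩) ∣ orderOf y := by
        exact (orderOf_map_dvd τ _).trans
          (orderOf_injective D.subtype D.subtype_injective ⟨y, hy.1⟩).symm.dvd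
      obtain ⟨k, hk⟩ := IsPGroup.iff_orderOf.1 PD.isPGroup' (τ ⟨y, hy.1⟩)
      rw [hk] at h1
      rcases k with _ | k
      · rw [pow_zero] at hk
        exact orderOf_eq_one_iff.1 hk
      · exact absurd ((dvd_pow_self 2 k.succ_ne_zero).trans h1) (by
          rw [← even_iff_two_dvd]; exact Nat.not_even_iff_odd.2 hy.2)
    refine Nat.Coprime.coprime_dvd_left (card_dvd_of_le hle) ?_
    rw [card_map_of_injective D.subtype_injective]
    exact ((Nat.prime_two.coprime_iff_not_dvd).2 (MonoidHom.not_dvd_card_ker_transferSylow PD hPD)).symm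
  have hO₁n : X ≤ normalizer (O₁ : Set G) := by
    refine fun g hg => normalizer_le_normalizer_closure _ (mem_set_normalizer_iff.2 fun y => ?_)
    have hnD : ∀ g ∈ X, ∀ y ∈ D, g * y * g⁻¹ ∈ D := by
      intro g hg y hy
      refine mem_centralizer_iff.2 fun r hr => ?_
      have h1 := mem_centralizer_iff.1 hy _ ((mem_normalizer_iff.1 (inv_mem hg) r).1 hr)
      have := congrArg (fun w => g * w * g⁻¹) h1
      simpa [mul_assoc] using this
    have hord : orderOf (g * y * g⁻¹) = orderOf y :=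
      orderOf_injective (MulAut.conj g).toMonoidHom (MulAut.conj g).injective y
    refine ⟨fun h => ⟨hnD g hg y h.1, hord ▸ h.2⟩, fun h => ⟨?_, hord ▸ h.2⟩⟩
    simpa [mul_assoc] using hnD g⁻¹ (inv_mem hg) _ h.1
  haveI hOn : (O₁.subgroupOf X).Normal :=
    (normal_subgroupOf_iff_le_normalizer (hO₁D.trans hDX)).2 hO₁n
  set O := O₁.subgroupOf X with hOdef
  have hOodd : (Nat.card O).Coprime 2 := by
    rwa [Nat.card_congr (subgroupOfEquivOfLe (hO₁D.trans hDX)).toEquiv]
  let q : X →* X ⧸ O := QuotientGroup.mk' O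
  have hq : Function.Surjective q := QuotientGroup.mk'_surjective O
  -- the section is constrained
  have hcons : centralizer (pCore 2 (X ⧸ O) : Set (X ⧸ O)) ≤ pCore 2 (X ⧸ O) := by
    have hRle : (R.subgroupOf X).map q ≤ pCore 2 (X ⧸ O) := by
      refine le_sSup ⟨?_, ((S.isPGroup'.to_le hRS).comap_subtype).map q⟩
      haveI : (R.subgroupOf X).Normal := normal_in_normalizer
      exact Subgroup.Normal.map inferInstance q hq
    intro y hy
    obtain ⟨w, rfl⟩ := hq y
    refine hRle ?_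
    have hwD : (w : G) ∈ D := by
      refine mem_centralizer_iff.2 fun r hr => ?_
      have h1 := mem_centralizer_iff.1 hy _ (hRle ⟨⟨r, le_normalizer hr⟩, hr, rfl⟩)
      have h2 : (w : G) * r * (w : G)⁻¹ * r⁻¹ ∈ R ⊓ O₁ := by
        refine ⟨R.mul_mem ((mem_normalizer_iff.1 w.2 r).1 hr) (R.inv_mem hr), ?_⟩
        have h3 : w * ⟨r, le_normalizer hr⟩ * w⁻¹ * (⟨r, le_normalizer hr⟩ : X)⁻¹ ∈ O := by
          rw [← QuotientGroup.ker_mk' O, MonoidHom.mem_ker]
          show q _ = 1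
          rw [map_mul, map_mul, map_mul, map_inv, map_inv, ← h1, mul_inv_cancel_right, mul_inv_cancel]
        exact h3
      rw [H19.inf_eq_bot_of_isPGroup_coprime (S.isPGroup'.to_le hRS) hO₁odd, mem_bot, mul_inv_eq_one] at h2
      exact (mul_inv_eq_iff_eq_mul.1 h2).symm
    set m := (orderOf (w : G)).factorization 2
    have hodd : Odd (orderOf ((w : G) ^ 2 ^ m)) := by
      rw [orderOf_pow_of_dvd (pow_ne_zero _ two_ne_zero) (Nat.ordProj_dvd _ _)]
      exact Nat.odd_iff.2 (Nat.two_dvd_ne_zero.1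
        (Nat.not_dvd_ordCompl Nat.prime_two (orderOf_pos (w : G)).ne'))
    have ho : (w : G) ^ 2 ^ m ∈ O₁ := subset_closure ⟨pow_mem hwD _, hodd⟩
    set l := orderOf (w : G) / 2 ^ m with hl
    have hp2 : ((w : G) ^ l) ∈ R := by
      obtain ⟨d, hd, hdle⟩ := hP0max.exists_conj_le (R := zpowers ((w : G) ^ l))
        (IsPGroup.of_card_dvd_pow (n := m) (by
          rw [Nat.card_zpowers]
          refine orderOf_dvd_of_pow_eq_one ?_
          rw [← pow_mul, hl, Nat.div_mul_cancel (Nat.ordProj_dvd _ _), pow_orderOf_eq_one]))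
        (zpowers_le.2 (pow_mem hwD l))
      have h1 : d * (w : G) ^ l * d⁻¹ ∈ P0 := hdle (CentralAutomizer.conj_mem_cj (mem_zpowers _))
      have h2 := mem_centralizer_iff.1 (hP0c h1) d hd
      have h3 : d * (w : G) ^ l * d⁻¹ = (w : G) ^ l := by
        have := congrArg (fun z => d⁻¹ * z) h2
        simpa [mul_assoc] using this
      exact hcen (h3 ▸ h1)
    have hcop : Nat.Coprime (2 ^ m) l :=
      Nat.Coprime.pow_left m (Nat.coprime_ordCompl Nat.prime_two (orderOf_pos (w : G)).ne')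
    have hgcd := Nat.gcd_eq_gcd_ab (2 ^ m) l
    rw [hcop.gcd_eq_one] at hgcd
    set i := Nat.gcdA (2 ^ m) l
    set j := Nat.gcdB (2 ^ m) l
    refine ⟨⟨((w : G) ^ l) ^ j, le_normalizer (zpow_mem hp2 j)⟩, zpow_mem hp2 j, ?_⟩
    refine (QuotientGroup.mk'_eq_mk' O).2 ⟨⟨((w : G) ^ 2 ^ m) ^ i, hDX (zpow_mem (pow_mem hwD _) i)⟩,
      zpow_mem ho i, Subtype.ext ?_⟩
    show ((w : G) ^ l) ^ j * ((w : G) ^ 2 ^ m) ^ i = w
    rw [← zpow_natCast, ← zpow_natCast, ← zpow_mul, ← zpow_mul, ← zpow_add, add_comm, ← hgcd,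
      Nat.cast_one, zpow_one]
  -- the Sylow subgroup of the section
  let SX : Sylow 2 X := S.subtype hSR
  let ST : Sylow 2 (X ⧸ O) := SX.mapSurjective hq
  obtain ⟨hf2, hf3⟩ := hfac X O₁ hcons ST
  set S' := (S : Subgroup G).subgroupOf X with hS'
  have hST : (ST : Subgroup (X ⧸ O)) = S'.map q := rfl
  have hqinj : Set.InjOn q S' := by
    intro a ha b hb hab
    have h1 : a⁻¹ * b ∈ S' ⊓ O := ⟨S'.mul_mem (S'.inv_mem ha) hb, QuotientGroup.eq.1 hab⟩
    rw [H19.inf_eq_bot_of_isPGroup_coprime (A := S') S.isPGroup'.comap_subtype hOodd, mem_bot] at h1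
    exact inv_mul_eq_one.1 h1
  have hSinj : Set.InjOn X.subtype S' := X.subtype_injective.injOn
  have hSe : S'.map X.subtype = S := map_subgroupOf_eq_of_le hSR
  -- lifting
  have liftN : ∀ (W : Subgroup X), W ≤ S' → ∀ n, q n ∈ normalizer (W.map q : Set (X ⧸ O)) →
      ∃ o ∈ O, o * n ∈ normalizer (W : Set X) := by
    intro W hW n hn
    refine exists_lift_normalizer O hOodd (S.isPGroup'.comap_subtype.to_le hW) ?_
    rw [mem_normalizer_iff]
    intro z
    have key : ∀ z, z ∈ W ⊔ O ↔ q z ∈ W.map q := fun z => by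
      rw [show W ⊔ O = (W.map q).comap q from by rw [comap_map_eq, QuotientGroup.ker_mk']]
      rfl
    rw [key, key, map_mul, map_mul, map_inv]
    exact mem_normalizer_iff.1 hn (q z)
  have liftC : ∀ (W : Subgroup X), W ≤ S' → ∀ c, q c ∈ centralizer (W.map q : Set (X ⧸ O)) →
      ∃ o ∈ O, o * c ∈ centralizer (W : Set X) := by
    intro W hW c hc
    refine exists_lift_centralizer O hOodd (S.isPGroup'.comap_subtype.to_le hW) fun z hz => ?_
    rw [← QuotientGroup.ker_mk' O, MonoidHom.mem_ker]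
    show q _ = 1
    rw [map_mul, map_mul, map_mul, map_inv, map_inv, ← mem_centralizer_iff.1 hc _ ⟨z, hz, rfl⟩,
      mul_inv_cancel_right, mul_inv_cancel]
  have combine : ∀ (W₁ W₂ : Subgroup X) (W₁' W₂' : Subgroup G), W₁ ≤ S' → W₂ ≤ S' →
      W₁.map X.subtype = W₁' → W₂.map X.subtype = W₂' →
      (∀ g : X ⧸ O, ∃ c ∈ centralizer (W₁.map q : Set (X ⧸ O)),
        ∃ n ∈ normalizer (W₂.map q : Set (X ⧸ O)), g = c * n) →
      ∃ o ∈ D, ∃ c ∈ centralizer (W₁' : Set G), ∃ n ∈ normalizer (W₂' : Set G), x = o * c * n := by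
    intro W₁ W₂ W₁' W₂' h1 h2 e1 e2 hf
    obtain ⟨c', hc', n', hn', he⟩ := hf (q ⟨x, hx⟩)
    obtain ⟨c, rfl⟩ := hq c'
    obtain ⟨n, rfl⟩ := hq n'
    obtain ⟨o₁, ho₁, hc⟩ := liftC W₁ h1 c hc'
    obtain ⟨o₂, ho₂, hn⟩ := liftN W₂ h2 n hn'
    have hmem : (⟨x, hx⟩ : X) * ((o₁ * c) * (o₂ * n))⁻¹ ∈ O := by
      rw [← QuotientGroup.ker_mk' O, MonoidHom.mem_ker]
      show q _ = 1
      have h1' : q o₁ = 1 := (QuotientGroup.eq_one_iff o₁).2 ho₁
      have h2' : q o₂ = 1 := (QuotientGroup.eq_one_iff o₂).2 ho₂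
      rw [map_mul, map_inv, map_mul, map_mul, map_mul, h1', h2', one_mul, one_mul, ← he, mul_inv_cancel]
    refine ⟨_, hO₁D hmem, ((o₁ * c : X) : G), ?_, ((o₂ * n : X) : G), ?_, ?_⟩
    · refine mem_centralizer_iff.2 ?_
      rw [← e1]
      rintro _ ⟨z, hz, rfl⟩
      exact congrArg Subtype.val (mem_centralizer_iff.1 hc z hz)
    · rw [← e2]
      exact le_normalizer_map X.subtype ⟨_, hn, rfl⟩
    · exact congrArg Subtype.val (show (⟨x, hx⟩ : X) =
        ⟨x, hx⟩ * ((o₁ * c) * (o₂ * n))⁻¹ * (o₁ * c) * (o₂ * n) by group)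
  have hjS : (jHat ↥S').map S'.subtype ≤ S' := map_subtype_le _
  refine ⟨combine (S' ⊓ centralizer (S' : Set X)) ((jHat ↥S').map S'.subtype) _ _ inf_le_left hjS ?_ ?_ ?_,
    combine (z1Of S') (thompsonSubgroupOf 2 S') _ _ (z1Of_le S') (map_subtype_le _) ?_ ?_ ?_⟩
  · rw [H23.map_inf_centralizer X.subtype S' hSinj, hSe]
  · rw [map_jHatOf X.subtype S' hSinj, hSe]
  · rw [H23.map_inf_centralizer q S' hqinj, map_jHatOf q S' hqinj, ← hST]
    exact hf2
  · rw [map_z1Of X.subtype S' hSinj, hSe]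
  · rw [H23.map_thompsonSubgroupOf X.subtype S' hSinj, hSe]
  · rw [map_z1Of q S' hqinj, H23.map_thompsonSubgroupOf q S' hqinj, ← hST]
    exact hf3

end Cfsg.Agent.H35.SFourControl
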