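import Cfsg.Agent.H35.SFourControl.LocalFactor
import Cfsg.Agent.S1996

set_option autoImplicit false

/-!
The normal closure of `Ω₁(Z(S))` in `N(J_e(S))` is strongly closed and controls fusion when the two
factorisations hold in constrained sections.
-/

namespace Cfsg.Agent.H35.SFourControl

open Cfsg Subgroup
open Cfsg.Agent.H35.CentralAutomizer (cj IsMaxPIn)

universe u

theorem inf_isMax {G : Type*} [Group G] [Finite G] {p : ℕ} [Fact p.Prime] {M S L : Subgroup G}
    (hS : IsMaxPIn p M S) (hLM : L ≤ M) (hn : M ≤ normalizer (L : Set G)) :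
    IsMaxPIn p L (S ⊓ L) := by
  refine ⟨inf_le_right, hS.2.1.to_le inf_le_left, fun Q hQ hle hQL => ?_⟩
  obtain ⟨m, hm, hmle⟩ := hS.exists_conj_le hQ (hQL.trans hLM)
  refine (eq_of_le_of_card_ge hle ?_).symm
  rw [← CentralAutomizer.card_cj m Q]
  refine card_le_of_le (le_inf hmle ?_)
  rintro _ ⟨q, hq, rfl⟩
  exact (mem_normalizer_iff.1 (hn hm) q).1 (hQL hq)

/-- An element normalising `L` is an element of `L` times an element normalising the Sylow part. -/
theorem exists_frattini {G : Type*} [Group G] [Finite G] {p : ℕ} [Fact p.Prime] {R L : Subgroup G}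
    (hR : IsMaxPIn p L R) {x : G} (hx : x ∈ normalizer (L : Set G)) :
    ∃ m ∈ L, m * x ∈ normalizer (R : Set G) := by
  obtain ⟨m, hm, hmle⟩ := hR.exists_conj_le (CentralAutomizer.isPGroup_cj x hR.2.1) (by
    rintro _ ⟨r, hr, rfl⟩
    exact (mem_normalizer_iff.1 hx r).1 (hR.1 hr))
  rw [CentralAutomizer.cj_cj] at hmle
  exact ⟨m, hm, mem_normalizer_iff_map_conj_eq.2
    (eq_of_le_of_card_ge hmle (CentralAutomizer.card_cj _ R).ge)⟩

theorem normalizer_jHatOf_le {G : Type u} [Group G] [Finite G] (S : Subgroup G) :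
    normalizer (((jHat S).map S.subtype : Subgroup G) : Set G) ≤ normalizer (z1Of S : Set G) := by
  intro g hg
  rw [mem_normalizer_iff_map_conj_eq] at hg ⊢
  set K := (jHat S).map S.subtype
  have hg' : K.map (MulAut.conj g).toMonoidHom = K := hg
  have hC : (centralizer (K : Set G)).map (MulAut.conj g).toMonoidHom = centralizer (K : Set G) := by
    rw [H34.map_centralizer, hg']
  show (z1Of S).map (MulAut.conj g).toMonoidHom = z1Of S
  rw [show z1Of S = omegaOne 2 (K ⊓ centralizer (K : Set G)) from rfl,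
    H34.map_omegaOne _ (MulAut.conj g).injective, map_inf _ _ _ (MulAut.conj g).injective, hg', hC]

theorem isCharPFunctor_z1 : IsCharPFunctor.{u} 2 (fun Q _ => z1 Q) := by
  refine ⟨fun Q _ _ hQ _ => ?_, fun Q R _ _ _ _ e => map_z1 e⟩
  haveI : Fact (Nat.Prime 2) := ⟨Nat.prime_two⟩
  haveI : Nontrivial (center Q) := hQ.center_nontrivial
  obtain ⟨z, hz⟩ := exists_prime_orderOf_dvd_card' 2 (G := center Q) (by
    obtain ⟨n, hn⟩ := IsPGroup.iff_card.1 (hQ.to_subgroup (center Q))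
    rw [hn]
    refine dvd_pow_self 2 fun h0 => ?_
    rw [h0, pow_zero] at hn
    exact absurd hn (Finite.one_lt_card).ne')
  have h2 : (z : Q) ^ 2 = 1 := by rw [← hz, ← Subgroup.orderOf_coe]; exact pow_orderOf_eq_one _
  intro hbot
  have hmem : (z : Q) ∈ z1 Q := subset_closure
    ⟨⟨thompson_le_jHat (mem_thompson_of_central z.2 h2),
      mem_centralizer_iff.2 fun g _ => mem_center_iff.1 z.2 g⟩, h2⟩
  simp only at hbot
  rw [hbot, mem_bot] at hmem
  rw [← Subgroup.orderOf_coe, hmem, orderOf_one] at hz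
  exact absurd hz (by norm_num)

theorem isCharPFunctor_thompson : IsCharPFunctor.{u} 2 (fun Q _ => thompsonSubgroup 2 Q) := by
  refine ⟨fun Q _ _ hQ hnt hbot => ?_, fun Q R _ _ _ _ e => H34.map_thompsonSubgroup e⟩
  haveI : Fact (Nat.Prime 2) := ⟨Nat.prime_two⟩
  obtain ⟨x, hx⟩ := exists_prime_orderOf_dvd_card' 2 (G := Q) (by
    obtain ⟨n, hn⟩ := IsPGroup.iff_card.1 hQ
    rw [hn]
    refine dvd_pow_self 2 fun h0 => ?_
    rw [h0, pow_zero] at hn
    exact absurd hn (Finite.one_lt_card).ne')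
  obtain ⟨A, hA⟩ := H34.exists_maxElementaryAbelian (G := Q) 2
  have hel : IsElementaryAbelian 2 (zpowers x) := by
    refine ⟨inferInstance, ?_⟩
    rintro _ ⟨i, rfl⟩
    show (x ^ i) ^ 2 = 1
    rw [← zpow_natCast (x ^ i), ← zpow_mul, mul_comm, zpow_mul, zpow_natCast, ← hx, pow_orderOf_eq_one,
      one_zpow]
  have hA1 : A = ⊥ := le_bot_iff.1 ((le_sSup hA).trans hbot.le)
  have h1 := hA.2 _ hel
  rw [hA1, card_bot, Nat.card_zpowers, hx] at h1
  omega

variable {G : Type u} [Group G] [Finite G]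

theorem main (hfac : Factors G) (S : Sylow 2 G) (N : Subgroup G)
    (hN : N = normalizer (thompsonSubgroupOf 2 (S : Subgroup G) : Set G)) (A : Subgroup G)
    (hA : A = (normalClosure (((omegaOne 2 ((S : Subgroup G) ⊓ centralizer ((S : Subgroup G) : Set G))).subgroupOf N :
      Subgroup ↥N) : Set ↥N)).map N.subtype) :
    A ≤ S ∧ IsElementaryAbelian 2 A ∧ IsStronglyClosed A (S : Subgroup G) ∧ ControlsStrongFusion 2 A := by
  classical
  haveI : Fact (Nat.Prime 2) := ⟨Nat.prime_two⟩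
  set S₀ := (S : Subgroup G) with hS₀
  set J := thompsonSubgroupOf 2 S₀
  set Z := S₀ ⊓ centralizer (S₀ : Set G) with hZ
  set Zs := omegaOne 2 Z
  set K := (jHat S₀).map S₀.subtype
  have hJK : J ≤ K := map_mono thompson_le_jHat
  have hKS : K ≤ S₀ := map_subtype_le _
  have hZ1S : z1Of S₀ ≤ S₀ := z1Of_le S₀
  have hSN : S₀ ≤ N := hN ▸ le_normalizer.trans (H34.normalizer_le_normalizer_thompson S₀)
  have hZsgen : ∀ z, z ∈ Z → z ^ 2 = 1 → z ∈ J ∧ z ∈ z1Of S₀ := by
    intro z hz h2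
    have hzJ : z ∈ J := ⟨⟨z, hz.1⟩, mem_thompson_of_central
      (mem_center_iff.2 fun g => Subtype.ext (mem_centralizer_iff.1 hz.2 g g.2)) (Subtype.ext h2), rfl⟩
    refine ⟨hzJ, subset_closure ⟨⟨hJK hzJ, mem_centralizer_iff.2 fun k hk => ?_⟩, h2⟩⟩
    exact mem_centralizer_iff.1 hz.2 k (hKS hk)
  have hZs : ∀ z ∈ Zs, z ∈ Z ∧ z ∈ J ∧ z ∈ z1Of S₀ := by
    have h1 : Zs ≤ Z := (closure_le _).2 fun _ hx => hx.1
    have h2 : Zs ≤ J ⊓ z1Of S₀ := (closure_le _).2 fun x hx => hZsgen x hx.1 hx.2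
    exact fun z hz => ⟨h1 hz, (h2 hz).1, (h2 hz).2⟩
  have hZ1el : IsElementaryAbelian 2 (z1Of S₀) := by
    haveI := H34.isMulCommutative_inf_centralizer K
    exact H34.omegaOne_isElementaryAbelian
  -- the conjugates of `Ω₁(Z(S))` in `N(J)`
  have hconj : ∀ n ∈ N, ∀ z ∈ Zs, n * z * n⁻¹ ∈ z1Of S₀ := by
    intro n hn z hz
    obtain ⟨hzZ, hzJ, -⟩ := hZs z hz
    set L := centralizer (J : Set G) ⊔ J
    have hnJ : n ∈ normalizer (J : Set G) := hN ▸ hn
    have hLN : normalizer (J : Set G) ≤ normalizer (L : Set G) := by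
      intro g hg
      rw [mem_normalizer_iff_map_conj_eq] at hg ⊢
      show (centralizer (J : Set G) ⊔ J).map (MulAut.conj g).toMonoidHom = L
      rw [Subgroup.map_sup, H34.map_centralizer]
      simp only [show J.map (MulAut.conj g).toMonoidHom = J from hg, L]
    have hLJ : L ≤ normalizer (J : Set G) := sup_le (centralizer_le_normalizer _) le_normalizer
    set R := S₀ ⊓ L
    have hJR : J ≤ R := le_inf (hJK.trans hKS) le_sup_right
    have hcen : S₀ ⊓ centralizer (R : Set G) ≤ R := fun s hs =>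
      ⟨hs.1, mem_sup_left (centralizer_le (SetLike.coe_subset_coe.2 hJR) hs.2)⟩
    have hSmax : IsMaxPIn 2 (normalizer (J : Set G)) S₀ :=
      ⟨hN ▸ hSN, S.isPGroup', fun Q h1 h2 _ => S.is_maximal' h1 h2⟩
    obtain ⟨m, hm, hr⟩ := exists_frattini (inf_isMax hSmax hLJ hLN) (hLN hnJ)
    set r := m * n with hrdef
    have hSR : S₀ ≤ normalizer (R : Set G) := by
      intro s hs
      refine mem_normalizer_iff.2 fun y => ?_
      exact and_congr ⟨fun h => S₀.mul_mem (S₀.mul_mem hs h) (S₀.inv_mem hs),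
        fun h => by simpa [mul_assoc] using S₀.mul_mem (S₀.mul_mem (S₀.inv_mem hs) h) hs⟩
        (mem_normalizer_iff.1 (hLN (hN ▸ hSN hs)) y)
    obtain ⟨⟨o, ho, c, hc, b, hb, hob⟩, -⟩ :=
      local_factor hfac S inf_le_left hSR hcen (inv_mem hr)
    have hro : r = b⁻¹ * c⁻¹ * o⁻¹ := by rw [← inv_inv r, hob]; group
    have hoz : o⁻¹ * z * o = z := by
      rw [mul_assoc, mem_centralizer_iff.1 ho z (hJR hzJ), inv_mul_cancel_left]
    have hcz : c⁻¹ * z * c = z := by
      rw [mul_assoc, mem_centralizer_iff.1 hc z hzZ, inv_mul_cancel_left]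
    have hrz : r * z * r⁻¹ = b⁻¹ * z * b := by
      rw [hro]
      calc b⁻¹ * c⁻¹ * o⁻¹ * z * (b⁻¹ * c⁻¹ * o⁻¹)⁻¹ = b⁻¹ * (c⁻¹ * (o⁻¹ * z * o) * c) * b := by group
        _ = b⁻¹ * z * b := by rw [hoz, hcz]
    have hrmem : r * z * r⁻¹ ∈ z1Of S₀ := by
      rw [hrz]
      have := (mem_normalizer_iff.1 (inv_mem (normalizer_jHatOf_le S₀ hb)) z).1 (hZs z hz).2.2
      simpa using this
    have hrJ : r * z * r⁻¹ ∈ J ⊓ centralizer (J : Set G) := by
      have hrN : r ∈ normalizer (J : Set G) := mul_mem (hLJ hm) hnJ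
      refine ⟨(mem_normalizer_iff.1 hrN z).1 hzJ, mem_centralizer_iff.2 fun j hj => ?_⟩
      have h1 := mem_centralizer_iff.1 hzZ.2 (r⁻¹ * j * r)
        (hKS (hJK (by simpa using (mem_normalizer_iff.1 (inv_mem hrN) j).1 hj)))
      have := congrArg (fun w => r * w * r⁻¹) h1
      simpa [mul_assoc] using this
    have hLfix : L ≤ centralizer ({r * z * r⁻¹} : Set G) := sup_le
      (fun y hy => mem_centralizer_singleton_iff.2 (mem_centralizer_iff.1 hy _ hrJ.1).symm)
      (fun y hy => mem_centralizer_singleton_iff.2 (mem_centralizer_iff.1 hrJ.2 y hy))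
    have hmfix := mem_centralizer_singleton_iff.1 (hLfix hm)
    have : n * z * n⁻¹ = r * z * r⁻¹ := by
      calc n * z * n⁻¹ = m⁻¹ * (r * z * r⁻¹ * m) := by rw [hrdef]; group
        _ = r * z * r⁻¹ := by rw [← hmfix, inv_mul_cancel_left]
    rwa [this]
  -- `A`
  have hAZ1 : A ≤ z1Of S₀ := by
    rw [hA, map_le_iff_le_comap, normalClosure, closure_le]
    intro y hy
    obtain ⟨z, hz, hzy⟩ := Group.mem_conjugatesOfSet_iff.1 hy
    obtain ⟨n, rfl⟩ := isConj_iff.1 hzy
    exact hconj n n.2 z hz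
  have hAel : IsElementaryAbelian 2 A := H34.isElementaryAbelian_mono hZ1el hAZ1
  have hNA : N ≤ normalizer (A : Set G) := by
    intro g hg
    rw [hA]
    refine le_normalizer_map N.subtype ⟨⟨g, hg⟩, ?_, rfl⟩
    rw [normalizer_eq_top_iff.2 normalClosure_normal]
    exact mem_top _
  have hCA : centralizer (z1Of S₀ : Set G) ≤ normalizer (A : Set G) :=
    (centralizer_le (SetLike.coe_subset_coe.2 hAZ1)).trans (centralizer_le_normalizer _)
  -- the normalizer of `Ω₁(Z(Ĵ))`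
  have hNZ1 : normalizer (z1Of S₀ : Set G) ≤ normalizer (A : Set G) := by
    intro x hx
    set C := centralizer (z1Of S₀ : Set G)
    set R := S₀ ⊓ C
    have hZ1R : z1Of S₀ ≤ R := le_inf hZ1S (le_centralizer_iff_isMulCommutative.2 hZ1el.1)
    have hcen : S₀ ⊓ centralizer (R : Set G) ≤ R := fun s hs =>
      ⟨hs.1, centralizer_le (SetLike.coe_subset_coe.2 hZ1R) hs.2⟩
    have hSn : S₀ ≤ normalizer (z1Of S₀ : Set G) := by
      refine le_trans ?_ (normalizer_jHatOf_le S₀)
      intro s hs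
      rw [mem_normalizer_iff_map_conj_eq]
      show K.map (MulAut.conj s).toMonoidHom = K
      have hS' : S₀.map (MulAut.conj s).toMonoidHom = S₀ :=
        mem_normalizer_iff_map_conj_eq.1 (le_normalizer hs)
      rw [map_jHatOf _ _ (MulAut.conj s).injective.injOn, hS']
    have hCn : normalizer (z1Of S₀ : Set G) ≤ normalizer (C : Set G) := by
      intro g hg
      rw [mem_normalizer_iff_map_conj_eq] at hg ⊢
      show C.map (MulAut.conj g).toMonoidHom = C
      rw [H34.map_centralizer]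
      exact congrArg (fun H : Subgroup G => centralizer (H : Set G)) hg
    have hSmax : IsMaxPIn 2 (normalizer (z1Of S₀ : Set G)) S₀ :=
      ⟨hSn, S.isPGroup', fun Q h1 h2 _ => S.is_maximal' h1 h2⟩
    obtain ⟨m, hm, hr⟩ :=
      exists_frattini (inf_isMax hSmax (centralizer_le_normalizer _) hCn) (hCn hx)
    have hSR : S₀ ≤ normalizer (R : Set G) := by
      intro s hs
      refine mem_normalizer_iff.2 fun y => ?_
      exact and_congr ⟨fun h => S₀.mul_mem (S₀.mul_mem hs h) (S₀.inv_mem hs),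
        fun h => by simpa [mul_assoc] using S₀.mul_mem (S₀.mul_mem (S₀.inv_mem hs) h) hs⟩
        (mem_normalizer_iff.1 (hCn (hSn hs)) y)
    obtain ⟨-, o, ho, c, hc, k, hk, he⟩ := local_factor hfac S inf_le_left hSR hcen hr
    have hxe : x = m⁻¹ * (o * c * k) := by rw [← he, inv_mul_cancel_left]
    rw [hxe]
    exact mul_mem (inv_mem (hCA hm)) (mul_mem (mul_mem
      (hCA (centralizer_le (SetLike.coe_subset_coe.2 hZ1R) ho)) (hCA hc)) (hNA (hN ▸ hk)))
  -- fusion
  have hctrl : ∀ (B : Set G) (h : G), B ⊆ S₀ → (fun b => h * b * h⁻¹) '' B ⊆ S₀ →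
      ∃ x ∈ normalizer (A : Set G), ∀ b ∈ B, h * b * h⁻¹ = x * b * x⁻¹ := by
    obtain ⟨T, -, hTp, hidx, hT⟩ := S1996.result (G := G) (fun Q _ => z1 Q) (fun Q _ => thompsonSubgroup 2 Q)
      isCharPFunctor_z1 isCharPFunctor_thompson (fun K' R' hR' hc T' x => by
        obtain ⟨c, hc', n, hn, rfl⟩ := (hfac K' R' hc T').2 x
        refine ⟨c, ?_, n, hn, rfl⟩
        rw [inducedFunctor_z1]
        exact centralizer_le_normalizer _ hc')
    rw [relIndex_top_right] at hidx
    obtain ⟨g, hg⟩ := MulAction.exists_smul_eq G S (hTp.toSylow hidx)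
    have hgT : cj g S₀ = T := congrArg Sylow.toSubgroup hg
    have hstep : ∀ W ∈ ({inducedFunctor (G := G) (fun Q _ => z1 Q),
        inducedFunctor (G := G) (fun Q _ => thompsonSubgroup 2 Q)} : Set (Subgroup G → Subgroup G)),
        normalizer (W T : Set G) ≤ cj g (normalizer (A : Set G)) := by
      rintro W (rfl | rfl)
      · rw [inducedFunctor_z1, ← hgT, cj, ← map_z1Of _ _ (MulAut.conj g).injective.injOn,
          ← map_normalizer_eq_of_bijective _ (MulAut.conj g).bijective]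
        exact map_mono hNZ1
      · show normalizer (thompsonSubgroupOf 2 T : Set G) ≤ _
        rw [← hgT, cj, ← H23.map_thompsonSubgroupOf _ _ (MulAut.conj g).injective.injOn,
          ← map_normalizer_eq_of_bijective _ (MulAut.conj g).bijective]
        exact map_mono (hN ▸ hNA)
    intro B h hB hhB
    have hB' : (fun b => g * b * g⁻¹) '' B ⊆ T := by
      rintro _ ⟨b, hb, rfl⟩
      rw [← hgT]
      exact CentralAutomizer.conj_mem_cj (hB hb)
    have hhB' : (fun a => g * h * g⁻¹ * a * (g * h * g⁻¹)⁻¹) '' ((fun b => g * b * g⁻¹) '' B) ⊆ T := by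
      rintro _ ⟨_, ⟨b, hb, rfl⟩, rfl⟩
      rw [← hgT]
      refine ⟨h * b * h⁻¹, hhB ⟨b, hb, rfl⟩, ?_⟩
      simp only [MulEquiv.coe_toMonoidHom, MulAut.conj_apply]
      group
    obtain ⟨n, c, hc0, hcs, -, hlast⟩ := hT _ (g * h * g⁻¹) (mem_top _) hB' hhB'
    have hmem : ∀ i, c i ∈ cj g (normalizer (A : Set G)) := by
      intro i
      induction i using Fin.induction with
      | zero => rw [hc0]; exact one_mem _
      | succ i ih =>
        obtain ⟨W, hW, hWm⟩ := hcs i
        have := mul_mem (hstep W hW hWm.2) ih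
        rwa [inv_mul_cancel_right] at this
    refine ⟨g⁻¹ * c (Fin.last n) * g, CentralAutomizer.mem_cj.1 (hmem _), fun b hb => ?_⟩
    have := congrArg (fun y => g⁻¹ * y * g) (hlast _ ⟨b, hb, rfl⟩)
    simp only at this
    calc h * b * h⁻¹ = g⁻¹ * (g * h * g⁻¹ * (g * b * g⁻¹) * (g * h * g⁻¹)⁻¹) * g := by group
      _ = g⁻¹ * (c (Fin.last n) * (g * b * g⁻¹) * (c (Fin.last n))⁻¹) * g := this.symm
      _ = g⁻¹ * c (Fin.last n) * g * b * (g⁻¹ * c (Fin.last n) * g)⁻¹ := by group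
  refine ⟨hAZ1.trans hZ1S, hAel, ⟨hAZ1.trans hZ1S, fun x hx g hgx => ?_⟩,
    S, hAZ1.trans hZ1S, fun B hB => ⟨hB, fun g hg => hctrl B g hB hg⟩⟩
  obtain ⟨y, hy, he⟩ := hctrl {x} g (by simpa using hZ1S (hAZ1 hx)) (by simpa using hgx)
  rw [he x rfl]
  exact (mem_normalizer_iff.1 hy x).1 hx

end Cfsg.Agent.H35.SFourControl
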